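import Cfsg.Agent.N2.Ex.CC.Defs
import Cfsg.Agent.N2.Ex.Al.Tab

/-!
# N2 (S3519), `BoxLt`: the checker (helper26)
-/

set_option autoImplicit false
set_option linter.unusedSectionVars false

namespace Cfsg.Agent.N2.Ex.CC.Lt

open CoxeterSystem Cfsg Cfsg.Lie Cfsg.Lie.ChevalleyDatum
open Cfsg.Agent.ChevalleyStructure Cfsg.Agent.ChevalleyStructure.CoxeterGeom Cfsg.Agent.Tits.Roots Cfsg.Agent.Nodes
  Cfsg.Agent.Nodes.BNOf Cfsg.Agent.Nodes.RGDChev Cfsg.Agent.Nodes.Coroot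
open Cfsg.Agent.DS.Ex.Tor (RT)
open Cfsg.Agent.N2.Ex.Al (LL cp ac GW Ch)
open Cfsg.Agent.N2.Ex.Al.Ck
open Cfsg.Agent.H931.KC (psi)

/-- the sum over a list -/
noncomputable def sm (f : ℕ → ℤ) (L : List ℕ) : ℤ := List.rec (motive := fun _ => ℤ) 0 (fun s _ ih => Int.add (f s) ih) L

theorem sm_eq (f : ℕ → ℤ) (L : List ℕ) : sm f L = (L.map f).sum := by
  induction L with
  | nil => rfl
  | cons s L ih => exact congrArg (f s + ·) ih

/-- the data of a row -/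
structure Dt where
  T : Tb
  l : ℕ
  r : ℕ
  c : List ℤ
  V : List (List ℤ)
  VI : List ℕ
  a : ℕ
  b : ℕ
  d : ℕ
  k : ℕ

namespace Dt

variable (X : Dt)

/-- a Cartan integer -/
def ci (t s : ℕ) : ℤ := Int.subNatNat (X.T.c t s) 2

/-- the value of a functional at a root -/
noncomputable def ev (F : ℕ → ℤ) (s : ℕ) : ℤ := sm (fun i => Int.mul (Int.subNatNat (X.T.u s i) 8) (F i)) (List.range X.l)

/-- the powers of `v` on the indices -/
noncomputable def it (s i : ℕ) : ℕ := Nat.rec (motive := fun _ => ℕ) s (fun _ ih => X.VI.getD ih 0) i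

/-- the orbit -/
noncomputable def orb (s : ℕ) : List ℕ := (List.range X.r).map (X.it s)

/-- the pairing of a root with a list of roots -/
noncomputable def bb (t : ℕ) (L : List ℕ) : ℤ := sm (X.ci t) L

/-- the root lies in `Pc` -/
noncomputable def pc (s : ℕ) : Bool := decide (X.ev (fun i => X.c.getD i 0) s % X.r = 0)

/-- the roots of a generator -/
noncomputable def gl (x s : ℕ) : List ℕ := cond (Nat.beq s x) [s] (X.orb s)

/-- `s` gives a generator -/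
noncomputable def okg (x s : ℕ) : Bool :=
  and (Nat.blt s X.T.n) (or (Nat.beq s x) (and (X.pc s) (aL (fun i => or (Nat.beq i 0) (Nat.beq (X.T.c (X.it s i) s) 2)) X.r)))

/-- one step -/
noncomputable def st (L : List ℕ) (s t : ℕ) : Bool :=
  and (Nat.blt t X.T.n)
    (aL (fun j => decide (X.bb j (X.orb t) = X.bb j (X.orb s) - sm (fun u => Int.mul (X.ci j u) (X.bb u (X.orb s))) L)) X.l)

/-- the certificate: entries `(a, b, generator, parent)` -/
noncomputable def cert (x : ℕ) (E : List (ℕ × ℕ × ℕ × ℕ)) : Bool :=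
  List.rec (motive := fun _ => Bool) true (fun e E ih => and (and (X.okg x e.2.2.1)
    (and (X.st (X.gl x e.2.2.1) (E.getD e.2.2.2 (X.b, X.d, 0, 0)).1 e.1)
      (X.st (X.gl x e.2.2.1) (E.getD e.2.2.2 (X.b, X.d, 0, 0)).2.1 e.2.1))) ih) E

/-- all pairs occur -/
noncomputable def all (E : List (ℕ × ℕ × ℕ × ℕ)) : Bool :=
  aL (fun s => or (not (and (X.pc s) (decide (X.bb s (X.orb s) = X.bb X.a (X.orb X.a))))) (aL (fun t =>
    or (not (and (decide (X.bb t (X.orb s) = X.bb X.b (X.orb X.a)))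
      (and (X.pc t) (decide (X.bb t (X.orb t) = X.bb X.b (X.orb X.b))))))
      (lE (fun e => and (Nat.beq e.1 s) (Nat.beq e.2.1 t)) E)) X.T.n)) X.T.n

/-- the norm -/
noncomputable def nm (s : ℕ) : ℤ := X.bb s (X.orb X.a) ^ 2 + X.bb s (X.orb X.a) * X.bb s (X.orb X.b) + X.bb s (X.orb X.b) ^ 2

/-- the checks which do not depend on the certificate -/
noncomputable def ok : Bool :=
  aL (fun s => and (Nat.blt (X.it s 1) X.T.n) (aL (fun j =>
    decide (Int.subNatNat (X.T.u (X.it s 1) j) 8 = X.ev (fun i => (X.V.getD i []).getD j 0) s)) X.l)) X.T.n &&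
  decide (X.a < X.T.n ∧ X.b < X.T.n ∧ X.d < X.T.n) && X.pc X.a && X.pc X.b &&
  aL (fun j => decide (X.bb j (X.orb X.d) = -X.bb j (X.orb X.a) - X.bb j (X.orb X.b) ∧
    X.bb (X.it j 1) (X.orb X.a) = X.bb j (X.orb X.a) ∧ X.bb (X.it j 1) (X.orb X.b) = X.bb j (X.orb X.b))) X.l &&
  aL (fun s => or (not (X.pc s)) (decide (X.nm s = 0 ∨ 36 % X.nm s = 0))) X.T.n &&
  Nat.ble (cL (fun s => and (X.pc s) (decide (X.nm s = 0))) X.T.n) X.k

end Dt

variable {X : Dt} {D : ChevalleyDatum} {M : CoxeterMatrix (Fin X.l)} {hp : IsType D X.l M}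

theorem subNat (a b : ℕ) : Int.subNatNat a b = (a : ℤ) - b := Int.subNatNat_eq_coe

theorem ev_eq (F : ℕ → ℤ) (s : ℕ) : X.ev F s = psi (fun i : Fin X.l => F i) (X.T.vec X.l s) := by
  show sm _ _ = ∑ i : Fin X.l, ((X.T.u s i : ℤ) - 8) * F i
  rw [sm_eq, ← Finset.sum_range fun i => ((X.T.u s i : ℤ) - 8) * F i, ← List.sum_toFinset _ List.nodup_range,
    List.toFinset_range]
  exact Finset.sum_congr rfl fun i _ => congrArg (· * F i) (subNat _ 8)

theorem pc_iff (G : Gt hp X.T) {s : ℕ} (hs : s < X.T.n) : X.pc s = true ↔ X.T.vec X.l s ∈ Pc hp X.r X.c := by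
  rw [Dt.pc, decide_eq_true_eq, ev_eq, ← Int.dvd_iff_emod_eq_zero]
  exact ⟨fun h => ⟨G.root s hs, h⟩, fun h => h.2⟩

/-- the functional of an orbit -/
noncomputable def fB (hp : IsType D X.l M) (v : M.Group) (a : LL X.l) (ha : RT hp a) : LL X.l →+ ℤ :=
  AddMonoidHom.mk' (fun x => ∑ i ∈ Finset.range X.r, cp hp x (ac hp (v ^ i) a)) fun x y => by
    rw [← Finset.sum_add_distrib]
    exact Finset.sum_congr rfl fun i _ => cp_add hp x y (rt_ac hp _ ha)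

theorem fB_apply (v : M.Group) (a : LL X.l) (ha : RT hp a) (x : LL X.l) :
    fB hp v a ha x = ∑ i ∈ Finset.range X.r, cp hp x (ac hp (v ^ i) a) := rfl

/-- the table describes `v` -/
structure Vi (hp : IsType D X.l M) (v : M.Group) : Prop where
  gt : Gt hp X.T
  one : ∀ s < X.T.n, X.it s 1 < X.T.n ∧ X.T.vec X.l (X.it s 1) = ac hp v (X.T.vec X.l s)

namespace Vi

variable {v : M.Group} (G : Vi hp v)
include G

theorem it {s : ℕ} (hs : s < X.T.n) (i : ℕ) : X.it s i < X.T.n ∧ X.T.vec X.l (X.it s i) = ac hp (v ^ i) (X.T.vec X.l s) := by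
  induction i with
  | zero => exact ⟨hs, by rw [pow_zero, ac_one]; rfl⟩
  | succ i ih => exact ⟨(G.one _ ih.1).1, by rw [pow_succ', ac_mul, ← ih.2]; exact (G.one _ ih.1).2⟩

theorem ci {t s : ℕ} (ht : t < X.T.n) (hs : s < X.T.n) : X.ci t s = cp hp (X.T.vec X.l t) (X.T.vec X.l s) :=
  (subNat _ _).trans (G.gt.cpe t ht s hs).symm

theorem bb {t s : ℕ} (ht : t < X.T.n) (hs : s < X.T.n) :
    X.bb t (X.orb s) = fB hp v _ (G.gt.root s hs) (X.T.vec X.l t) := by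
  rw [Dt.bb, sm_eq, Dt.orb, List.map_map, fB_apply, ← List.sum_toFinset _ List.nodup_range, List.toFinset_range]
  exact Finset.sum_congr rfl fun i _ => by rw [Function.comp, G.ci ht (G.it hs i).1, (G.it hs i).2]

theorem gen {W : Subgroup M.Group} (hW : ∀ a ∈ Pc hp X.r X.c, Ort hp X.r v a → ∃ w ∈ W, Ro hp X.r v a w) {x : ℕ}
    (hx : x < X.T.n → ∃ w ∈ W, Rl hp (X.T.vec X.l x) w) {s : ℕ} (h : X.okg x s = true) :
    (∀ u ∈ X.gl x s, u < X.T.n) ∧ ∃ w ∈ W, ∀ y, ac hp w y =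
      y - ((X.gl x s).map fun u => cp hp y (X.T.vec X.l u) • X.T.vec X.l u).sum := by
  simp only [Dt.okg, Bool.and_eq_true, Bool.or_eq_true, Nat.blt_eq, aL_iff] at h
  obtain ⟨h1, h2⟩ := h
  rw [Dt.gl]
  cases e : Nat.beq s x with
  | true =>
    obtain rfl := Nat.eq_of_beq_eq_true e
    obtain ⟨w, k1, k2⟩ := hx h1
    exact ⟨fun u hu => List.mem_singleton.1 hu ▸ h1, w, k1, fun y => by simpa using k2 y⟩
  | false =>
    obtain ⟨h3, h4⟩ := h2.resolve_left (by rw [e]; exact Bool.false_ne_true)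
    obtain ⟨w, k1, k2⟩ := hW _ ((pc_iff G.gt h1).1 h3) fun i i0 ir => by
      have := (h4 i ir).resolve_left fun k => i0.ne' (Nat.eq_of_beq_eq_true k)
      rw [← (G.it h1 i).2, G.gt.cpe _ (G.it h1 i).1 _ h1, Nat.eq_of_beq_eq_true this]
      rfl
    refine ⟨fun u hu => ?_, w, k1, fun y => ?_⟩
    · obtain ⟨i, -, rfl⟩ := List.mem_map.1 hu
      exact (G.it h1 i).1
    · rw [k2 y, cond_false, Dt.orb, List.map_map, ← List.sum_toFinset _ List.nodup_range, List.toFinset_range]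
      exact congrArg (y - ·) (Finset.sum_congr rfl fun i _ => by rw [Function.comp, (G.it h1 i).2])

theorem st {L : List ℕ} (hL : ∀ u ∈ L, u < X.T.n) {w : M.Group}
    (hw : ∀ y, ac hp w y = y - (L.map fun u => cp hp y (X.T.vec X.l u) • X.T.vec X.l u).sum) {s t : ℕ} (hs : s < X.T.n)
    (h : X.st L s t = true) : ∃ ht : t < X.T.n, ∀ y, fB hp v _ (G.gt.root s hs) (ac hp w y) = fB hp v _ (G.gt.root t ht) y := by
  simp only [Dt.st, Bool.and_eq_true, Nat.blt_eq, aL_iff, decide_eq_true_eq] at h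
  refine ⟨h.1, DFunLike.congr_fun (hom_ext (f := (fB hp v _ (G.gt.root s hs)).comp (ac hp w).toAddMonoidHom) fun j => ?_)⟩
  show fB hp v _ (G.gt.root s hs) (ac hp w (sr j)) = _
  rw [hw, map_sub, map_list_sum, List.map_map, ← G.gt.sim j, ← G.bb (G.gt.lt_n j) h.1, h.2 j j.2, G.bb (G.gt.lt_n j) hs, sm_eq]
  refine congrArg (_ - List.sum ·) (List.map_congr_left fun u hu => ?_)
  rw [Function.comp, map_zsmul, G.ci (G.gt.lt_n j) (hL u hu), G.bb (hL u hu) hs]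
  rfl

theorem cert {W : Subgroup M.Group} (hW : ∀ a ∈ Pc hp X.r X.c, Ort hp X.r v a → ∃ w ∈ W, Ro hp X.r v a w) {x : ℕ}
    (hx : x < X.T.n → ∃ w ∈ W, Rl hp (X.T.vec X.l x) w) (hb : X.b < X.T.n) (hd : X.d < X.T.n)
    {E : List (ℕ × ℕ × ℕ × ℕ)} (h : X.cert x E = true) : ∀ e, e ∈ E ∨ e = (X.b, X.d, 0, 0) →
      ∃ (h1 : e.1 < X.T.n) (h2 : e.2.1 < X.T.n), ∃ w ∈ W, ∀ y,
        fB hp v _ (G.gt.root _ hb) (ac hp w y) = fB hp v _ (G.gt.root _ h1) y ∧
        fB hp v _ (G.gt.root _ hd) (ac hp w y) = fB hp v _ (G.gt.root _ h2) y := by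
  induction E with
  | nil =>
    rintro e (k | rfl)
    · exact absurd k List.not_mem_nil
    · exact ⟨hb, hd, 1, one_mem _, fun y => by rw [ac_one]; exact ⟨rfl, rfl⟩⟩
  | cons e E ih =>
    have h' : and (and (X.okg x e.2.2.1) (and (X.st (X.gl x e.2.2.1) (E.getD e.2.2.2 (X.b, X.d, 0, 0)).1 e.1)
      (X.st (X.gl x e.2.2.1) (E.getD e.2.2.2 (X.b, X.d, 0, 0)).2.1 e.2.1))) (X.cert x E) = true := h
    simp only [Bool.and_eq_true] at h'
    obtain ⟨⟨k1, k2, k3⟩, k4⟩ := h'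
    intro e' he
    rcases he with he | he
    swap
    · exact ih k4 e' (Or.inr he)
    rcases List.mem_cons.1 he with rfl | he
    swap
    · exact ih k4 e' (Or.inl he)
    obtain ⟨p1, p2, w, hw, k5⟩ := ih k4 (E.getD e'.2.2.2 (X.b, X.d, 0, 0)) (by
      by_cases k : e'.2.2.2 < E.length
      · exact Or.inl (by rw [List.getD_eq_getElem _ _ k]; exact List.getElem_mem k)
      · exact Or.inr (List.getD_eq_default _ _ (not_lt.1 k)))
    obtain ⟨g1, u, hu, g2⟩ := G.gen hW hx k1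
    obtain ⟨a1, a2⟩ := G.st g1 g2 p1 k2
    obtain ⟨b1, b2⟩ := G.st g1 g2 p2 k3
    exact ⟨a1, b1, w * u, mul_mem hw hu, fun y => by rw [ac_mul, (k5 _).1, (k5 _).2]; exact ⟨a2 y, b2 y⟩⟩

end Vi

theorem gw_cp {g : LL X.l ≃+ LL X.l} (hg : GW hp g) (x : LL X.l) {a : LL X.l} (ha : RT hp a) :
    cp hp (g x) (g a) = cp hp x a := by
  obtain ⟨w, h | ⟨-, h⟩⟩ := hg <;> rw [h, h]
  · exact cp_ac hp w x ha
  · rw [cp_neg' hp _ (rt_ac hp w ha), cp_neg hp _ (rt_ac hp w ha), neg_neg, cp_ac hp w x ha]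

/-- **the checker** -/
theorem lt_of (G : Gt hp X.T) {v : M.Group} {W : Subgroup M.Group} {g : LL X.l ≃+ LL X.l} {q m x : ℕ}
    {E : List (ℕ × ℕ × ℕ × ℕ)} (hv : ∀ i : Fin X.l, ac hp v (sr i) = lv X.l (X.V.getD i []))
    (hW : ∀ a ∈ Pc hp X.r X.c, Ort hp X.r v a → ∃ w ∈ W, Ro hp X.r v a w)
    (hx : x < X.T.n → ∃ w ∈ W, Rl hp (X.T.vec X.l x) w) (hg : GW hp g) (gv : ∀ x, g (ac hp v x) = ac hp v (g x))
    (gP : ∀ a ∈ Pc hp X.r X.c, g a ∈ Pc hp X.r X.c) (hm : m.Prime) (h5 : 5 ≤ m) (hq : m ∣ q ^ 2 + q + 1)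
    (h0 : X.ok = true) (h1 : X.cert x E = true) (h2 : X.all E = true) :
    ∃ w ∈ W, ∃ φ : LL X.l →+ ℤ, Ch q (g.trans (ac hp w)) m φ ∧ (∀ x, φ (ac hp v x) = φ x) ∧
      {a ∈ Pc hp X.r X.c | (m : ℤ) ∣ φ a}.ncard ≤ X.k := by
  simp only [Dt.ok, Bool.and_eq_true, Bool.or_eq_true, aL_iff, decide_eq_true_eq, Nat.blt_eq, Nat.ble_eq,
    Bool.not_eq_true'] at h0
  obtain ⟨⟨⟨⟨⟨⟨o1, ha, hb, hd⟩, o2⟩, o3⟩, o4⟩, o5⟩, o6⟩ := h0
  have V : Vi hp v := ⟨G, fun s hs => ⟨(o1 s hs).1, funext fun j => by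
    have e := hom_ext (f := psi fun i : Fin X.l => (X.V.getD i []).getD j 0)
      (g := (Pi.evalAddMonoidHom (fun _ => ℤ) j).comp (ac hp v).toAddMonoidHom) fun i => by
        show ∑ k, sr i k * _ = ac hp v (sr i) j
        rw [hv]
        simp [sr, Pi.single_apply, lv]
    exact (subNat _ _).symm.trans (((o1 s hs).2 j j.2).trans ((ev_eq _ s).trans (DFunLike.congr_fun e _)))⟩⟩
  have gp : ∀ (i : ℕ) y, g (ac hp (v ^ i) y) = ac hp (v ^ i) (g y) := fun i => by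
    induction i with
    | zero => intro y; rw [pow_zero, ac_one, ac_one]
    | succ i ih => intro y; rw [pow_succ', ac_mul, ac_mul, gv, ih]
  have key : ∀ s (hs : s < X.T.n), X.pc s = true → ∃ t, ∃ ht : t < X.T.n, X.pc t = true ∧ X.T.vec X.l t = g (X.T.vec X.l s) ∧
      ∀ y, fB hp v _ (G.root t ht) (g y) = fB hp v _ (G.root s hs) y := fun s hs k => by
    have k1 := gP _ ((pc_iff G hs).1 k)
    obtain ⟨t, ht, e⟩ := G.surj _ k1.1
    refine ⟨t, ht, (pc_iff G ht).2 (e ▸ k1), e, fun y => ?_⟩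
    rw [fB_apply, fB_apply]
    exact Finset.sum_congr rfl fun i _ => by rw [e, ← gp, gw_cp hg _ (rt_ac hp _ (G.root s hs))]
  obtain ⟨s, hs, s1, s2, s3⟩ := key _ ha o2
  obtain ⟨t, ht, t1, t2, t3⟩ := key _ hb o3
  simp only [Dt.all, Bool.and_eq_true, Bool.or_eq_true, aL_iff, lE_iff, decide_eq_true_eq, Nat.beq_eq, Bool.not_eq_true',
    ← Bool.not_eq_true] at h2
  obtain ⟨e, he, rfl, rfl⟩ := (((h2 s hs).resolve_left fun k => k ⟨s1, by rw [V.bb hs hs, V.bb ha ha, ← s3, ← s2]⟩) t ht).resolve_left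
    fun k => k ⟨by rw [V.bb ht hs, V.bb hb ha, t2, s3], t1, by rw [V.bb ht ht, V.bb hb hb, ← t3, ← t2]⟩
  obtain ⟨_, _, w, hw, k⟩ := V.cert hW hx hb hd h1 e (Or.inl he)
  have ed : ∀ y, fB hp v _ (G.root _ hd) y = -fB hp v _ (G.root _ ha) y - fB hp v _ (G.root _ hb) y :=
    DFunLike.congr_fun (hom_ext (g := -fB hp v _ (G.root _ ha) - fB hp v _ (G.root _ hb)) fun j => by
      show _ = -fB hp v _ (G.root _ ha) (sr j) - fB hp v _ (G.root _ hb) (sr j)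
      rw [← G.sim j, ← V.bb (G.lt_n j) hd, ← V.bb (G.lt_n j) ha, ← V.bb (G.lt_n j) hb, (o4 j j.2).1])
  have iv : ∀ s (hs : s < X.T.n), (∀ j < X.l, X.bb (X.it j 1) (X.orb s) = X.bb j (X.orb s)) → ∀ y,
      fB hp v _ (G.root s hs) (ac hp v y) = fB hp v _ (G.root s hs) y := fun s hs k =>
    DFunLike.congr_fun (hom_ext (f := (fB hp v _ (G.root s hs)).comp (ac hp v).toAddMonoidHom) fun j => by
      show fB hp v _ (G.root s hs) (ac hp v (sr j)) = _
      rw [← G.sim j, ← (V.one _ (G.lt_n j)).2, ← V.bb (V.one _ (G.lt_n j)).1 hs, ← V.bb (G.lt_n j) hs, k j j.2])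
  have hq' : (m : ℤ) ∣ (q : ℤ) ^ 2 + q + 1 := by exact_mod_cast hq
  refine ⟨w, hw, fB hp v _ (G.root _ ha) + ((q : ℤ) + 1) • fB hp v _ (G.root _ hb), fun y => ?_, fun y => ?_, ?_⟩
  · have e1 := (k (g y)).1
    have e2 := (k (g y)).2
    rw [s3] at e1
    rw [t3, ed, e1] at e2
    show _ ∣ fB hp v _ (G.root _ ha) (ac hp w (g y)) + (q + 1 : ℤ) * fB hp v _ (G.root _ hb) (ac hp w (g y)) -
      q * (fB hp v _ (G.root _ ha) y + (q + 1 : ℤ) * fB hp v _ (G.root _ hb) y)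
    rw [e1]
    exact (hq'.mul_right (-fB hp v _ (G.root _ hb) y)).trans (dvd_of_eq (by linear_combination e2))
  · show fB hp v _ (G.root _ ha) (ac hp v y) + (q + 1 : ℤ) * fB hp v _ (G.root _ hb) (ac hp v y) =
      fB hp v _ (G.root _ ha) y + (q + 1 : ℤ) * fB hp v _ (G.root _ hb) y
    rw [iv _ ha fun j hj => (o4 j hj).2.1, iv _ hb fun j hj => (o4 j hj).2.2]
  · refine le_trans ?_ o6
    rw [← G.ncard_eq (P := fun a => ∃ s < X.T.n, X.T.vec X.l s = a ∧ (X.pc s && decide (X.nm s = 0)) = true) fun s hs =>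
      ⟨fun ⟨t, ht, e, k⟩ => G.inj t ht s hs e ▸ k, fun k => ⟨s, hs, rfl, k⟩⟩]
    refine Set.ncard_le_ncard (fun a ⟨a1, a2⟩ => ?_) (((Set.finite_lt_nat X.T.n).image (X.T.vec X.l)).subset
      fun a ⟨_, s, hs, e, _⟩ => ⟨s, hs, e⟩)
    obtain ⟨s, hs, rfl⟩ := G.surj a a1.1
    have p := (pc_iff G hs).2 a1
    refine ⟨a1.1, s, hs, rfl, ?_⟩
    rw [p, Bool.true_and, decide_eq_true_eq]
    refine ((o5 s hs).resolve_left (by rw [p]; exact Bool.noConfusion)).resolve_right fun k36 => ?_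
    have a3 : (m : ℤ) ∣ X.bb s (X.orb X.a) + (q + 1) * X.bb s (X.orb X.b) := by
      rw [V.bb hs ha, V.bb hs hb]; exact a2
    have a4 : (m : ℤ) ∣ X.nm s := by
      rw [Dt.nm]
      generalize X.bb s (X.orb X.a) = i at a3
      generalize X.bb s (X.orb X.b) = j at a3
      exact (dvd_add (a3.mul_right (i - q * j)) (hq'.mul_right (j ^ 2))).trans (dvd_of_eq (by ring))
    have a5 : m ∣ 6 ^ 2 := by exact_mod_cast a4.trans (Int.dvd_of_emod_eq_zero k36)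
    have := Nat.le_of_dvd (by norm_num) (hm.dvd_of_dvd_pow a5)
    have a6 := hm.dvd_of_dvd_pow a5
    interval_cases m
    · omega
    · exact absurd hm (by norm_num)

end Cfsg.Agent.N2.Ex.CC.Lt
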