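import Cfsg.Agent.N2.Ex.CC.Defs
import Cfsg.Agent.N2.Ex.Al.Grp

/-!
# N2 (S3519), box `QB`: the common part (helper32)
-/

set_option autoImplicit false
set_option linter.unusedSectionVars false
set_option maxHeartbeats 400000

namespace Cfsg.Agent.N2.Ex.CC.QB0

open CoxeterSystem Cfsg Cfsg.Lie Cfsg.Lie.ChevalleyDatum
open Cfsg.Agent.ChevalleyStructure Cfsg.Agent.ChevalleyStructure.CoxeterGeom Cfsg.Agent.Tits.Roots Cfsg.Agent.Nodes
  Cfsg.Agent.Nodes.BNOf Cfsg.Agent.Nodes.RGDChev Cfsg.Agent.Nodes.Coroot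
open Cfsg.Agent.KFacts.RgdChevCoord Cfsg.Agent.BpExc.Fr Cfsg.Agent.BpExc.LangFr
open Cfsg.Agent.H469.Exc Cfsg.Agent.H316.U6 Cfsg.Agent.H129.TorusChar Cfsg.Agent.DS.Ex Cfsg.Agent.DS.Nt
open Cfsg.Agent.DS.Ex.Tor (RT FR MS)
open Cfsg.Agent.N2.Ex.Al (LL cp ac GW Ch)

variable {D : ChevalleyDatum} {l : ℕ} {M : CoxeterMatrix (Fin l)} {hp : IsType D l M} {p : ℕ} [Fact p.Prime]
  {r : ℕ} {e f n : YY D p} {u w : M.Group}

/-- an `r`-element of the torus which kills exactly the roots in the kernel of `π` -/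
theorem exists_t (hD : Typ D) (hr : r.Prime) (hrp : r ≠ p) (π : LL l →+ LL l) :
    ∃ t ∈ TT D (KK p), (∃ j, t ^ r ^ j = 1) ∧ ∀ a, a ∈ Ps hp p {t} ↔ RT hp a ∧ π a = 0 := by
  classical
  obtain ⟨μ, hμ⟩ := BpExc.Fix.exists_fun (((Al.Gp.fin_RT hp).toFinset.image π).filter (· ≠ 0))
    fun x hx => (Finset.mem_filter.1 hx).2
  obtain ⟨B, hB⟩ := ((Al.Gp.fin_RT hp).image fun a => (μ (π a)).natAbs).bddAbove
  have h3 : (r ^ B).Coprime p := ((Nat.coprime_primes hr Fact.out).2 hrp).pow_left B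
  have : NeZero ((r ^ B : ℕ) : KK p) := ⟨Cb.cast_ne h3⟩
  obtain ⟨ζ, hζ⟩ := HasEnoughRootsOfUnity.exists_primitiveRoot (KK p) (r ^ B)
  obtain ⟨t, ht, h4⟩ := exists_tor_zpow hp hD (hζ.ne_zero (pow_ne_zero B hr.ne_zero)) (μ.comp π)
  refine ⟨t, ht, ⟨B, pow_eq_one_of_cX (hp := hp) ht fun x => ?_⟩, fun a => ?_⟩
  · rw [h4, ← zpow_natCast, ← zpow_mul, mul_comm, zpow_mul, zpow_natCast, hζ.pow_eq_one, one_zpow]
  · rw [mem_Ps (Set.singleton_subset_iff.2 ht)]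
    refine and_congr_right fun ha => ⟨fun h => ?_, fun h s hs => ?_⟩
    · have h9 := (hζ.zpow_eq_one_iff_dvd _).1 ((h4 a).symm.trans (h t rfl))
      have h10 : (μ (π a)).natAbs ≤ B := hB ⟨a, ha, rfl⟩
      have h11 := Nat.eq_zero_of_dvd_of_lt (Int.natCast_dvd.1 h9) (h10.trans_lt (Nat.lt_pow_self hr.one_lt))
      by_contra h0
      exact hμ _ (Finset.mem_filter.2 ⟨Finset.mem_image_of_mem π ((Set.Finite.mem_toFinset _).2 ha), h0⟩)
        (Int.natAbs_eq_zero.1 h11)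
    · rw [hs, h4, AddMonoidHom.comp_apply, h, map_zero, zpow_zero]

theorem fin_ord (hp : IsType D l M) (y : YY D p) : IsOfFinOrder y := by
  obtain ⟨E, hE⟩ := BpExc.TowChev.exists_level hp (locFin p) y
  obtain ⟨y', rfl⟩ := hE E le_rfl
  have : Finite ↥(D.group ↥E.1) := BpExc.TowChev.finite_group
  exact MonoidHom.isOfFinOrder _ (isOfFinOrder_of_finite y')

theorem pow_w (P : P2 p r e f) (hw : RP hp p w f) : w ^ r = 1 :=
  (hw.pow r).unique (P.hf ▸ RP.of_mem (one_mem _))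

theorem r_part {X : Type*} [Group X] (hr : r.Prime) {x : X} (hx : IsOfFinOrder x) :
    ∃ (y : X) (i : ℕ) (j : ℤ), y ^ r ^ i = 1 ∧ x = y * (x ^ r) ^ j ∧ y ∈ Subgroup.zpowers x := by
  obtain ⟨i, m, h1, h2⟩ := Nat.exists_eq_pow_mul_and_not_dvd hx.orderOf_pos.ne' r hr.ne_one
  obtain ⟨a, b, h3⟩ := Nat.isCoprime_iff_coprime.2 (hr.coprime_iff_not_dvd.2 h1)
  refine ⟨x ^ (b * m), i, a, ?_, ?_, Subgroup.zpow_mem_zpowers _ _⟩
  · rw [← zpow_natCast, ← zpow_mul, mul_assoc, mul_comm b, zpow_mul, ← Nat.cast_mul, mul_comm m, ← h2, zpow_natCast,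
      pow_orderOf_eq_one, one_zpow]
  · rw [← zpow_natCast, ← zpow_mul, ← zpow_add, add_comm, mul_comm (r : ℤ), h3, zpow_one]

/-- **the better torus** -/
theorem core (P : P2 p r e f) (he : e ∈ TT D (KK p)) (π : LL l →+ LL l)
    (hπ : ∀ b, RT hp b → π b = 0 → b ∈ Ps hp p {e} ∧ CX p l (n⁻¹ * f) b)
    (hn : n ∈ Tor.DD D p {b | RT hp b ∧ π b = 0}) (hu : RP hp p u n) (hur : u ^ r = 1) (hw : RP hp p w f) :
    ∃ g, g * e = e * g ∧ RP hp p (u⁻¹ * w) (g * f * g⁻¹) := by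
  have := finW hp
  obtain ⟨t, ht, htr, h1⟩ := exists_t (hp := hp) P.tp P.prime P.ne π
  have hZ : ({t} : Set (YY D p)) ⊆ TT D (KK p) := Set.singleton_subset_iff.2 ht
  have h2 : {b | RT hp b ∧ π b = 0} = Ps hp p {t} := Set.ext fun a => (h1 a).symm
  have h3 : n ∈ DZ hp p {t} := by
    rw [h2] at hn
    exact hn
  have hc : ∀ k : YY D p, (∀ b ∈ Ps hp p {t}, CX p l k b) → ∀ m ∈ Mz hp p {t}, k * m = m * k := fun k hk m hm =>
    (Subgroup.mem_centralizer_singleton_iff.1 ((Mz_le (K := Subgroup.centralizer {k}) fun b hb x hx =>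
      Subgroup.mem_centralizer_singleton_iff.2 (hk b hb x hx).symm) hm)).symm
  have h4 := hc _ fun b hb => (hπ b ((h1 b).1 hb).1 ((h1 b).1 hb).2).2
  have h5 : ∀ (i : ℕ), ∀ m ∈ Mz hp p {t}, f ^ i * m * (f ^ i)⁻¹ = n ^ i * m * (n ^ i)⁻¹ := fun i => by
    induction i with
    | zero => simp
    | succ i ih =>
      intro m hm
      have h6 : f * m * f⁻¹ = n * m * n⁻¹ := by
        calc f * m * f⁻¹ = n * (n⁻¹ * f * m) * f⁻¹ := by group
          _ = _ := by rw [h4 m hm]; group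
      calc f ^ (i + 1) * m * (f ^ (i + 1))⁻¹ = f ^ i * (f * m * f⁻¹) * (f ^ i)⁻¹ := by rw [pow_succ]; group
        _ = n ^ i * (n * m * n⁻¹) * (n ^ i)⁻¹ := by
          rw [h6, ih _ (conj_mem_Mz (Set.finite_singleton t) hZ (fun s hs => DZ_comm hZ h3 hs) hm)]
        _ = _ := by rw [pow_succ]; group
  have h6 : ∀ m ∈ Mz hp p {t}, Commute (n ^ r) m := fun m hm => by
    have h7 := h5 r m hm
    rw [P.hf, one_mul, inv_one, mul_one] at h7
    exact (eq_mul_inv_iff_mul_eq.1 h7).symm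
  have h7 : n ^ r ∈ TT D (KK p) := RP.mem_T (hp := hp) (hur ▸ hu.pow r)
  obtain ⟨y, i, j, a1, a2, a3⟩ := r_part P.prime (fin_ord hp n)
  obtain ⟨g, a4, a5⟩ := exists_pair hp (g := 1) (by simpa using ht)
    (tp_of_mem_DZ P.prime P.ne ht htr (Subgroup.zpowers_le.2 h3 a3) ⟨i, a1⟩)
  have a6 : g⁻¹ * t = t * g⁻¹ := by
    rw [one_mul, inv_one, mul_one] at a4
    rw [inv_mul_eq_iff_eq_mul, ← mul_assoc, a4]
  obtain ⟨m, hm, v, -, k, hk, -, a7⟩ := form hp (Set.finite_singleton t) hZ (c := g⁻¹) fun s hs => hs ▸ a6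
  have a8 : m⁻¹ * y * m ∈ TT D (KK p) := by
    have a9 := hk.conj_mem a5
    rwa [show g = (m * k)⁻¹ by rw [← a7, inv_inv], show k * ((m * k)⁻¹ * y * (m * k)⁻¹⁻¹) * k⁻¹ = m⁻¹ * y * m by group] at a9
  refine ⟨m⁻¹, Mz_comm (hp := hp) (Set.singleton_subset_iff.2 he) (inv_mem (Mz_le (fun b hb =>
    X_le_Mz (hπ b ((h1 b).1 hb).1 ((h1 b).1 hb).2).1) hm)) rfl, ?_⟩
  have b1 : m⁻¹ * f * m⁻¹⁻¹ = m⁻¹ * y * m * (n ^ r) ^ j * (n⁻¹ * f) := by
    calc m⁻¹ * f * m⁻¹⁻¹ = m⁻¹ * n * (n⁻¹ * f * m) := by group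
      _ = m⁻¹ * (y * (n ^ r) ^ j) * m * (n⁻¹ * f) := by rw [h4 m hm, ← a2]; group
      _ = m⁻¹ * y * ((n ^ r) ^ j * m) * (n⁻¹ * f) := by group
      _ = _ := by rw [((h6 m hm).zpow_left j).eq]; group
  rw [b1, ← one_mul (u⁻¹ * w)]
  exact (RP.of_mem (mul_mem a8 (zpow_mem h7 j))).mul (hu.inv.mul hw)

theorem nw_add (x y : LL l) : Nw hp r w (x + y) = Nw hp r w x + Nw hp r w y := by
  simp only [Nw, map_add, Finset.sum_add_distrib]

/-- `Nw` as an additive map -/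
noncomputable def nwH (hp : IsType D l M) (r : ℕ) (w : M.Group) : LL l →+ LL l := AddMonoidHom.mk' (Nw hp r w) nw_add

theorem nwH_apply (x : LL l) : nwH hp r w x = Nw hp r w x := rfl

theorem nw_ac (hw : w ^ r = 1) (x : LL l) : Nw hp r w (ac hp w x) = Nw hp r w x := by
  have h1 := Finset.sum_range_succ (fun i => ac hp (w ^ i) x) r
  rw [Finset.sum_range_succ', hw, pow_zero] at h1
  simp only [pow_succ, Al.ET.ac_mul] at h1
  exact add_right_cancel h1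

theorem nw_zero (hr : r ≠ 0) (hw : w ^ r = 1) (h : ∀ x, Nw hp r w (ac hp u x) = Nw hp r w x) (x : LL l)
    (h0 : Nw hp r (u⁻¹ * w) x = 0) : Nw hp r w x = 0 := by
  have h1 : ∀ x, Nw hp r w (ac hp (u⁻¹ * w) x) = Nw hp r w x := fun x => by
    rw [← h, ← Al.ET.ac_mul, mul_inv_cancel_left, nw_ac hw]
  have h2 : ∀ i, Nw hp r w (ac hp ((u⁻¹ * w) ^ i) x) = Nw hp r w x := fun i => by
    induction i with
    | zero => rw [pow_zero, Al.ET.ac_one]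
    | succ i ih => rw [pow_succ', Al.ET.ac_mul, h1, ih]
  have h3 := congrArg (nwH hp r w) h0
  rw [map_zero, Nw, map_sum] at h3
  simp only [nwH_apply, h2, Finset.sum_const, Finset.card_range] at h3
  exact (smul_eq_zero.1 h3).resolve_left hr

end Cfsg.Agent.N2.Ex.CC.QB0
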